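import Cfsg.Agent.H454.Reg.Defs
import Cfsg.Agent.S0245
import Cfsg.Agent.S0246
import Cfsg.Agent.S0814

/-!
# S3691: `PSp_14(2)` is too small (helper195, for helper925)
-/

set_option autoImplicit false
open Cfsg

namespace Cfsg.Agent.H195.Rs

open Subgroup Cfsg.Agent.H454.Reg

theorem card_psp7 {F : Type} [Field F] [Fintype F] (hF : Fintype.card F = 2) :
    Nat.card (PSp 7 F) = 27930968965434591767112450048000 := by
  have h1 := S0245.result (F := F) hF 7
  have h2 := S0246.result (F := F) hF 7 (by norm_num)
  have h3 := Subgroup.card_eq_card_quotient_mul_card_subgroup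
    (Subgroup.center (Matrix.symplecticGroup (Fin 7) F))
  rw [h1, h2] at h3
  rw [Finset.prod_range_succ, Finset.prod_range_succ, Finset.prod_range_succ,
    Finset.prod_range_succ, Finset.prod_range_succ, Finset.prod_range_succ, Finset.prod_range_succ,
    Finset.prod_range_zero] at h3
  norm_num at h3
  exact h3.symm

theorem card_le_mulAut {G : Type*} [Group G] [Finite G] {T : Subgroup G} (hn : T.Normal)
    (hc : centralizer (T : Set G) = ⊥) : Nat.card G ≤ Nat.card (MulAut T) := by
  have hfin : Finite (MulAut T) := Finite.of_injective (fun f : MulAut T => (f : T → T)) DFunLike.coe_injective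
  refine Nat.card_le_card_of_injective (MulAut.conjNormal : G →* MulAut T) ?_
  rw [injective_iff_map_eq_one]
  intro g hg
  have h1 : g ∈ centralizer (T : Set G) := by
    rw [mem_centralizer_iff]
    intro t ht
    have h3 := congrArg (fun f : MulAut T => ((f ⟨t, ht⟩ : T) : G)) hg
    have h4 : g * t * g⁻¹ = t := h3
    have h5 := congrArg (· * g) h4
    simp only [inv_mul_cancel_right] at h5
    exact h5.symm
  rwa [hc, mem_bot] at h1

/-- **the case `(q, m) = (2, 7)`** -/
theorem size7 {G : Type*} [Group G] [Finite G] {T H B : Subgroup G} (hE : Ex T H B) (hTB : ¬ T ≤ B)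
    (F : Type) [Field F] [Fintype F] (hF : Fintype.card F = 2) (e : T ≃* PSp 7 F) : False := by
  have h2 : Fact (Nat.Prime 2) := ⟨Nat.prime_two⟩
  have hcT : Nat.card T = 27930968965434591767112450048000 := by
    rw [← card_psp7 hF]
    exact Nat.card_congr e.toEquiv
  have hA : Nat.card (MulAut T) = Nat.card T := by
    have hc := S0814.result (F := F) 2 1 le_rfl (by rw [hF]; norm_num) 7 (by norm_num) (by norm_num)
    rw [if_neg (by norm_num)] at hc
    norm_num at hc
    rw [Nat.card_congr (MulAut.congr e).toEquiv, hc, Nat.card_congr e.toEquiv]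
  have h3 := card_le_mulAut hE.normal hE.cent
  rw [hA, hcT] at h3
  have h4 := hE.card
  have h5 : 26525285981219105863630848000000 < Nat.card B := by
    have h6 := hE.large
    have h7 : 3 * Nat.factorial 29 = 26525285981219105863630848000000 := by
      norm_num [Nat.factorial]
    rwa [h7] at h6
  have h6 : Nat.card H < 2 := by
    by_contra hcon
    push Not at hcon
    have h7 : 2 * Nat.card B ≤ Nat.card H * Nat.card B := Nat.mul_le_mul_right _ hcon
    rw [h4] at h7
    omega
  have h7 : Nat.card H = 1 := by
    have : 0 < Nat.card H := Nat.card_pos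
    omega
  rw [h7, one_mul] at h4
  apply hTB
  rw [Subgroup.eq_top_of_card_eq B h4]
  exact le_top

end Cfsg.Agent.H195.Rs
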